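import Mathlib
import Cfsg.Prelude.Def_Characters
import Cfsg.Agent.CharLib.BrauerInd

set_option autoImplicit false

namespace Cfsg.Agent.CharLib.H2

open Module Representation Cfsg Cfsg.Agent.CharLib
open scoped ComplexConjugate

universe u v

/-- Brauer's characterization of characters with coefficients in an additive subgroup of `ℂ`. -/
theorem classInner_mem_of_elementary {G : Type u} [Group G] [Fintype G] (R : AddSubgroup ℂ)
    {θ : G → ℂ} (hθ : IsClassFunction G θ)
    (hE : ∀ (E : Subgroup G) [Fintype E] (p : ℕ), p.Prime → IsElementary p E →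
      ∀ ψ : E → ℂ, IsCharacter E ψ → classInner (fun e : E => θ e) ψ ∈ R)
    {χ : G → ℂ} (hχ : IsCharacter G χ) : classInner θ χ ∈ R := by
  have key : ∀ f ∈ IndSpan IsElem G, classInner (f * θ) χ ∈ R := by
    intro f hf
    unfold IndSpan at hf
    induction hf using AddSubgroup.closure_induction with
    | mem x hx =>
      obtain ⟨E, φ, ⟨p, hp, hEp⟩, hφ, rfl⟩ := hx
      letI : Fintype E := Fintype.ofFinite _
      rw [← indFun_mul_res E φ hθ, frobenius_reciprocity E _ (isClassFunction_of_char hχ)]
      have h1 := hE E p hp hEp _ (isCharacter_mul (isCharacter_conj hφ) (isCharacter_restrict hχ E))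
      have h2 : classInner (φ * fun h : E => θ h) (fun h : E => χ h) =
          classInner (fun e : E => θ e) ((fun g => conj (φ g)) * fun x : E => χ x) := by
        rw [classInner, classInner]
        congr 1
        refine Finset.sum_congr rfl fun e _ => ?_
        simp only [Pi.mul_apply, map_mul, Complex.conj_conj]
        ring
      rw [h2]
      exact h1
    | zero => rw [zero_mul]; simp [classInner]
    | add x y _ _ hx hy => rw [add_mul, classInner_add_left]; exact R.add_mem hx hy
    | neg x _ hx => rw [neg_mul, classInner_neg_left]; exact R.neg_mem hx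
  have := key _ one_mem_IndSpan_isElem
  have h2 : (fun _ => 1 : G → ℂ) * θ = θ := by funext g; simp
  rwa [h2] at this

end Cfsg.Agent.CharLib.H2
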