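import Mathlib
import Cfsg.Prelude.Def_Characters
import Cfsg.Agent.CharLib.Orth

set_option autoImplicit false

namespace Cfsg.Agent.CharLib

open Module Representation
open scoped ComplexConjugate

universe u v

variable {G : Type u} [Group G]

/-- The character of a permutation representation counts fixed points. -/
theorem char_ofMulAction (X : Type v) [MulAction G X] [Finite X] (g : G) :
    (Representation.ofMulAction ℂ G X).character g = (Nat.card (MulAction.fixedBy X g) : ℂ) := by
  classical
  cases nonempty_fintype X
  rw [Representation.character, LinearMap.trace_eq_matrix_trace ℂ (MonoidAlgebra.basis X ℂ),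
    Matrix.trace]
  have h1 : ∀ x : X, Matrix.diag (LinearMap.toMatrix (MonoidAlgebra.basis X ℂ)
      (MonoidAlgebra.basis X ℂ) (Representation.ofMulAction ℂ G X g)) x =
      if g • x = x then 1 else 0 := by
    intro x
    rw [Matrix.diag_apply, LinearMap.toMatrix_apply, MonoidAlgebra.basis_apply,
      Representation.ofMulAction_single]
    show (MonoidAlgebra.single (g • x) (1 : ℂ)).coeff x = _
    rw [MonoidAlgebra.coeff_single_apply]
  simp only [h1]
  rw [Finset.sum_boole, Nat.card_eq_fintype_card]
  congr 1
  rw [← Fintype.card_subtype]
  rfl

theorem isCharacter_fixedBy (X : Type v) [MulAction G X] [Finite X] :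
    IsCharacter G (fun g => (Nat.card (MulAction.fixedBy X g) : ℂ)) := by
  have h : FiniteDimensional ℂ (MonoidAlgebra ℂ X) :=
    Module.Finite.of_basis (MonoidAlgebra.basis X ℂ)
  have := isCharacter_char (Representation.ofMulAction ℂ G X)
  have h2 : (Representation.ofMulAction ℂ G X).character =
      fun g => (Nat.card (MulAction.fixedBy X g) : ℂ) := by
    ext g; exact char_ofMulAction X g
  rwa [h2] at this

theorem char_leftRegular [Finite G] (g : G) [Decidable (g = 1)] :
    (Representation.leftRegular ℂ G).character g = if g = 1 then (Nat.card G : ℂ) else 0 := by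
  rw [char_ofMulAction]
  split_ifs with h
  · subst h
    congr 1
    apply Nat.card_congr
    exact (Equiv.subtypeUnivEquiv (fun x => by simp [MulAction.mem_fixedBy]))
  · have : IsEmpty (MulAction.fixedBy G g) := by
      constructor
      rintro ⟨x, hx⟩
      rw [MulAction.mem_fixedBy, smul_eq_mul, mul_eq_right] at hx
      exact h hx
    simp

theorem char_leftRegular_eq_sum [Finite G] :
    (Representation.leftRegular ℂ G).character =
      ∑ χ : IrrCharacter G, (χ : G → ℂ) 1 • (χ : G → ℂ) := by
  classical
  ext g
  rw [char_leftRegular, ← sum_irr_one_mul]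
  simp

end Cfsg.Agent.CharLib
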